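import Cfsg.Agent.H722.DPol.Main
import Cfsg.Agent.H582.Sph.Lemma
import Cfsg.Agent.Blocks.ReynoldsAux
import Mathlib.Algebra.Field.ZMod

/-!
# The characters of the dual polar schemes in the principal block (helper697, for S4933)

`DP G X d m Q s` : the dual polar scheme of rank `m` (`H722/DPol/Main.lean`), `χ_j` its characters.

* `mem_unitary` : `χ_j ∈ B0` if `s Q^(m-j) = -1` modulo `p`, or if `Q^c = -1`, `2c ∣ j`;
* `mem_linear` : `χ_j ∈ B0` if `Q^j = 1` modulo `p` and the distances `≥ e`, `e` the order of `Q`, are not `p`-essential;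
* `invariant` : `χ_j` is invariant under all automorphisms induced by isometries of the scheme.
-/

set_option autoImplicit false
set_option linter.unusedSectionVars false

namespace Cfsg.Agent.H697.HT.DPB0

open Polynomial Finset Cfsg.Agent.H722.DPol

section ring

variable {R : Type*} [CommRing R]

/-- `∏_{l < n} (1 + a Q^l x)` -/
noncomputable def Pn (Q a : R) (n : ℕ) : R[X] := ∏ l ∈ range n, (1 + C (a * Q ^ l) * X)

theorem FF_eq (Q s : R) (m j : ℕ) : FF Q s m j = Pn Q s (m - j) * Pn Q (-1) j := by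
  unfold FF Pn
  congr 1
  refine prod_congr rfl fun l _ => ?_
  rw [neg_one_mul, map_neg, neg_mul, sub_eq_add_neg]

theorem Pn_add (Q a : R) (n k : ℕ) : Pn Q a (n + k) = Pn Q a n * Pn Q (a * Q ^ n) k := by
  unfold Pn
  rw [prod_range_add]
  congr 1
  refine prod_congr rfl fun l _ => ?_
  rw [pow_add, mul_assoc]

theorem Pn_shift (Q a : R) (n : ℕ) : (1 + C a * X) * Pn Q (a * Q) n = (1 + C (a * Q ^ n) * X) * Pn Q a n := by
  have h1 := Pn_add Q a 1 n
  have h2 := Pn_add Q a n 1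
  rw [add_comm 1 n] at h1
  rw [h1] at h2
  have e1 : Pn Q a 1 = 1 + C a * X := by
    unfold Pn
    simp
  have e2 : Pn Q (a * Q ^ n) 1 = 1 + C (a * Q ^ n) * X := by
    unfold Pn
    simp
  rw [e1, e2, pow_one] at h2
  rw [h2, mul_comm]

theorem Pn_comp (Q a : R) (n : ℕ) : (Pn Q a n).comp (C Q * X) = Pn Q (a * Q) n := by
  unfold Pn
  rw [Polynomial.prod_comp]
  refine prod_congr rfl fun l _ => ?_
  simp only [add_comp, one_comp, mul_comp, C_comp, X_comp]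
  simp only [map_mul, map_pow]
  ring

theorem Pn_coeff_zero (Q a : R) (n : ℕ) : (Pn Q a n).coeff 0 = 1 := by
  unfold Pn
  rw [coeff_zero_prod]
  simp

variable [IsDomain R]

theorem one_add_ne (a : R) : (1 + C a * X : R[X]) ≠ 0 := by
  intro h
  have h1 := congrArg (fun p => p.coeff 0) h
  simp at h1

/-- periodicity -/
theorem Pn_mul_pow {Q : R} {n : ℕ} (hn : Q ^ n = 1) (a : R) (u : ℕ) : Pn Q (a * Q ^ u) n = Pn Q a n := by
  induction u with
  | zero => rw [pow_zero, mul_one]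
  | succ u ih =>
    have h1 := Pn_shift Q (a * Q ^ u) n
    rw [hn, mul_one] at h1
    have h2 := mul_left_cancel₀ (one_add_ne _) h1
    rw [pow_succ, ← mul_assoc, h2, ih]

/-- the coefficients in the degrees prime to the period vanish -/
theorem Pn_coeff {Q : R} {n : ℕ} (hn : Q ^ n = 1) (a : R) {i : ℕ} (hi : Q ^ i ≠ 1) : (Pn Q a n).coeff i = 0 := by
  have h1 := Pn_comp Q a n
  have h2 := Pn_mul_pow hn a 1
  rw [pow_one] at h2
  rw [h2] at h1
  have h3 := congrArg (fun p => p.coeff i) h1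
  simp only [comp_C_mul_X_coeff] at h3
  have h4 : (Pn Q a n).coeff i * (Q ^ i - 1) = 0 := by linear_combination h3
  rcases mul_eq_zero.1 h4 with h5 | h5
  · exact h5
  · exact absurd (sub_eq_zero.1 h5) hi

/-- **unitary, first case** -/
theorem FF_unitary₁ {Q s : R} {m j : ℕ} (hj : j ≤ m) (h : s * Q ^ (m - j) = -1) : FF Q s m j = FF Q s m 0 := by
  rw [FF_eq, FF_eq, Nat.sub_zero]
  have h1 := Pn_add Q s (m - j) j
  rw [Nat.sub_add_cancel hj, h] at h1
  rw [h1]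
  unfold Pn
  simp

/-- **unitary, second case** -/
theorem FF_unitary₂ {Q s : R} {t c m j : ℕ} (hs : s = Q ^ t) (hc : Q ^ c = -1) (hj : j ≤ m) (hQj : Q ^ j = 1) :
    FF Q s m j = FF Q s m 0 := by
  rw [FF_eq, FF_eq, Nat.sub_zero]
  have h1 := Pn_add Q s (m - j) j
  rw [Nat.sub_add_cancel hj] at h1
  rw [h1]
  have h2 : Pn Q (s * Q ^ (m - j)) j = Pn Q 1 j := by
    rw [hs, ← pow_add]
    have := Pn_mul_pow hQj 1 (t + (m - j))
    rwa [one_mul] at this
  have h3 : Pn Q (-1) j = Pn Q 1 j := by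
    have := Pn_mul_pow hQj 1 c
    rwa [one_mul, hc] at this
  rw [h2, h3]
  unfold Pn
  simp

/-- **linear** -/
theorem FF_linear {Q s : R} {e m j i : ℕ} (he : ∀ k, 0 < k → k < e → Q ^ k ≠ 1) (hj : j ≤ m) (hQj : Q ^ j = 1)
    (hi : i < e) : (FF Q s m j).coeff i = (FF Q s m 0).coeff i := by
  rw [FF_eq, FF_eq, Nat.sub_zero]
  have h1 := Pn_add Q s (m - j) j
  rw [Nat.sub_add_cancel hj] at h1
  rw [h1]
  have h0 : Pn Q (-1) 0 = 1 := by
    unfold Pn
    simp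
  rw [h0, mul_one]
  have key : ∀ a : R, (Pn Q s (m - j) * Pn Q a j).coeff i = (Pn Q s (m - j)).coeff i := by
    intro a
    rw [coeff_mul, sum_eq_single (i, 0)]
    · rw [Pn_coeff_zero, mul_one]
    · rintro ⟨u, v⟩ huv hne
      rw [Finset.HasAntidiagonal.mem_antidiagonal] at huv
      dsimp only at huv ⊢
      have hv : 0 < v := by
        rcases Nat.eq_zero_or_pos v with rfl | hv
        · exact absurd (by rw [← huv, add_zero]) hne
        · exact hv
      rw [Pn_coeff hQj a (he v hv (by omega)), mul_zero]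
    · intro h
      exact absurd (Finset.HasAntidiagonal.mem_antidiagonal.2 (by simp)) h
  rw [key, key]

end ring

section zmod

variable {p : ℕ} [Fact p.Prime] {Q s m j : ℕ}

theorem PP_cast (i : ℕ) : ((PP (Q : ℤ) (s : ℤ) m j i : ℤ) : ZMod p) = PP (Q : ZMod p) (s : ZMod p) m j i := by
  have := PP_map (Int.castRingHom (ZMod p)) (Q : ℤ) (s : ℤ) m j i
  simpa using this

theorem PP_castQ (i : ℕ) : ((PP (Q : ℤ) (s : ℤ) m j i : ℤ) : ℚ) = PP (Q : ℚ) (s : ℚ) m j i := by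
  have := PP_map (Int.castRingHom ℚ) (Q : ℤ) (s : ℤ) m j i
  simpa using this

theorem dvd_of_eq {i : ℕ} (h : PP (Q : ZMod p) (s : ZMod p) m j i = PP (Q : ZMod p) (s : ZMod p) m 0 i) :
    (p : ℤ) ∣ PP (Q : ℤ) (s : ℤ) m j i - PP (Q : ℤ) (s : ℤ) m 0 i := by
  rw [← ZMod.intCast_zmod_eq_zero_iff_dvd, Int.cast_sub, PP_cast, PP_cast, h, sub_self]

/-- **the congruences, unitary primes** -/
theorem dvd_unitary {t c : ℕ} (hs : s = Q ^ t) (hc : (Q : ZMod p) ^ c = -1) (hj : j ≤ m) (hQj : (Q : ZMod p) ^ j = 1)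
    (i : ℕ) : (p : ℤ) ∣ PP (Q : ℤ) (s : ℤ) m j i - PP (Q : ℤ) (s : ℤ) m 0 i := by
  refine dvd_of_eq ?_
  unfold PP
  rw [FF_unitary₂ (s := (s : ZMod p)) (t := t) (by rw [hs]; push_cast; rfl) hc hj hQj]

/-- **the congruences, unitary primes**, the other characters -/
theorem dvd_unitary' (hj : j ≤ m) (h : (s : ZMod p) * (Q : ZMod p) ^ (m - j) = -1)
    (i : ℕ) : (p : ℤ) ∣ PP (Q : ℤ) (s : ℤ) m j i - PP (Q : ℤ) (s : ℤ) m 0 i := by
  refine dvd_of_eq ?_
  unfold PP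
  rw [FF_unitary₁ hj h]

/-- **the congruences, linear primes** -/
theorem dvd_linear {e : ℕ} (he : ∀ k, 0 < k → k < e → (Q : ZMod p) ^ k ≠ 1) (hj : j ≤ m)
    (hQj : (Q : ZMod p) ^ j = 1) {i : ℕ} (hi : i < e) :
    (p : ℤ) ∣ PP (Q : ℤ) (s : ℤ) m j i - PP (Q : ℤ) (s : ℤ) m 0 i :=
  dvd_of_eq (FF_linear he hj hQj hi)

end zmod

section block

open Cfsg Cfsg.Agent.H582.Sph Cfsg.Agent.H816.IMEig Cfsg.Agent.Blocks.Fong
open scoped BigOperators

universe u v

variable {G : Type u} [Group G] {X : Type v} [MulAction G X] {d : X → X → ℕ} {m Q s j p : ℕ} {M : Ideal AlgInt}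

/-- `γ` is induced by an isometry of the scheme -/
def Iso (d : X → X → ℕ) (γ : G ≃* G) : Prop :=
  ∃ π : Equiv.Perm X, (∀ (g : G) (x : X), π (g • x) = γ g • π x) ∧ ∀ x y : X, d (π x) (π y) = d x y

/-- the `j`-th character of the scheme -/
def IsChi (d : X → X → ℕ) (m Q s j : ℕ) (χ : G → ℂ) : Prop :=
  χ 1 = ((ff (Q : ℚ) (s : ℚ) m j : ℚ) : ℂ) ∧ ∀ γ : G ≃* G, Iso d γ → ∀ g, χ (γ g) = χ g

/-- the exponent of `p` in the degree -/
theorem IsChi.factorization [Finite G] (hp : p.Prime) {χ : IrrCharacter G} (h : IsChi d m Q s j (χ : G → ℂ)) :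
    ((charDegree (χ : G → ℂ)).factorization p : ℤ) = padicValRat p (ff (Q : ℚ) (s : ℚ) m j) := by
  have h1 : ((charDegree (χ : G → ℂ) : ℕ) : ℂ) = ((ff (Q : ℚ) (s : ℚ) m j : ℚ) : ℂ) := by
    rw [← h.1]
    exact Blocks.ReynoldsAux.coe_charDegree (Characters.Core.isIrr_isCharacter χ.2)
  have h2 : ((charDegree (χ : G → ℂ) : ℕ) : ℚ) = ff (Q : ℚ) (s : ℚ) m j := by exact_mod_cast h1
  rw [← h2, padicValRat.of_nat, Nat.factorization_def _ hp]

/-- no `p`-essential pairs at distance at least `e` -/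
def Ines1 (p e : ℕ) (G : Type u) [Group G] {X : Type v} [MulAction G X] (d : X → X → ℕ) : Prop :=
  ∀ x y : X, e ≤ d x y → ∃ R : Subgroup G, IsPGroup p R ∧ (∀ r ∈ R, r • x = x) ∧ (∀ r ∈ R, r • y = y) ∧
    ∀ k ∈ Subgroup.centralizer (R : Set G), k • x ≠ y

theorem exists_mem [Finite G] [Finite X] [Nonempty X] (hM : IsPModular p M) (hQ : 2 ≤ Q) (hs : 1 ≤ s) (hm : 1 ≤ m)
    (h : DP G X d m Q s) (hj : j ≤ m) (e : ℕ)
    (hc : ∀ i < e, (p : ℤ) ∣ PP (Q : ℤ) (s : ℤ) m j i - PP (Q : ℤ) (s : ℤ) m 0 i) (hI : Ines1 p e G d) :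
    ∃ χ : IrrCharacter G, χ ∈ principalBlock M G ∧ IsChi d m Q s j (χ : G → ℂ) := by
  classical
  have hp := hM.2.1.isPrime
  have := Fintype.ofFinite X
  obtain ⟨χ, hχ, h1, h2⟩ := DP.exists_char hQ hs hm h hj
  have hQ' : (1 : ℚ) < Q := by exact_mod_cast hQ
  have hs' : (0 : ℚ) < s := by exact_mod_cast hs
  have hff : ff (Q : ℚ) (s : ℚ) m j ≠ 0 := (ff_pos hQ' hs' hj).ne'
  have hX0 : (Nat.card X : ℂ) ≠ 0 := by exact_mod_cast (Nat.card_pos (α := X)).ne'
  refine ⟨⟨χ, hχ⟩, ?_, h1, ?_⟩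
  · refine mem_principal_of_sph' (ω := fun u : Fin (m + 1) => ((om m Q s j u : ℚ) : ℂ)) hM h.toCol ⟨χ, hχ⟩
      (a := ((ff (Q : ℚ) (s : ℚ) m j : ℚ) : ℂ) / (Nat.card X : ℂ)) ?_ ?_ ?_ ?_
    · exact div_ne_zero (by exact_mod_cast hff) hX0
    · show ((om m Q s j 0 : ℚ) : ℂ) = 1
      rw [om_zero]
      norm_num
    · exact h2
    · intro x u
      have hu : (u : ℕ) ≤ m := Nat.le_of_lt_succ u.2
      have e1 : ((Col.kk h.col x u : ℕ) : ℚ) = PP (Q : ℚ) (s : ℚ) m 0 u := DP.kk_eq hQ hs h x u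
      have e2 : (Col.kk h.col x u : ℂ) * ((om m Q s j u : ℚ) : ℂ) - (Col.kk h.col x u : ℂ) =
          (((PP (Q : ℤ) (s : ℤ) m j u - PP (Q : ℤ) (s : ℤ) m 0 u : ℤ) : AlgInt) : ℂ) := by
        have e3 : ((Col.kk h.col x u : ℕ) : ℚ) * om m Q s j u - ((Col.kk h.col x u : ℕ) : ℚ) =
            ((PP (Q : ℤ) (s : ℤ) m j u - PP (Q : ℤ) (s : ℤ) m 0 u : ℤ) : ℚ) := by
          rw [Int.cast_sub, PP_castQ, PP_castQ, e1]
          unfold om
          have := (val_pos hQ' hs' hu).ne'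
          field_simp
        have e4 := congrArg (fun r : ℚ => (r : ℂ)) e3
        push_cast at e4 ⊢
        exact e4
      rw [e2]
      rcases Nat.lt_or_ge (u : ℕ) e with hlt | hge
      · left
        obtain ⟨k, hk⟩ := hc u hlt
        rw [lideal_coe_iff hp, hk]
        push_cast
        exact M.mul_mem_right _ hM.2.2
      · right
        refine ⟨lring_coe hp _, ?_⟩
        intro x' y' hxy
        refine hI x' y' ?_
        have := congrArg Fin.val hxy
        change d x' y' = (u : ℕ) at this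
        omega
  · rintro γ ⟨π, hπ1, hπ2⟩ g
    show χ (γ g) = χ g
    rw [h2, h2]
    congr 1
    rw [← Equiv.sum_comp π]
    refine Finset.sum_congr rfl fun x _ => ?_
    rw [← hπ1, hπ2]

/-- **Unitary primes**: `Q ^ c = -1`, `Q ^ j = 1` modulo `p`. -/
theorem mem_unitary [Finite G] [Finite X] [Nonempty X] (hM : IsPModular p M) (hQ : 2 ≤ Q) {t : ℕ} (hs : s = Q ^ t)
    (hm : 1 ≤ m) (h : DP G X d m Q s) (hj : j ≤ m) {c : ℕ} (hc : (Q : ZMod p) ^ c = -1) (hQj : (Q : ZMod p) ^ j = 1) :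
    ∃ χ : IrrCharacter G, χ ∈ principalBlock M G ∧ IsChi d m Q s j (χ : G → ℂ) := by
  have : Fact p.Prime := ⟨hM.1⟩
  refine exists_mem hM hQ (by rw [hs]; exact Nat.one_le_pow _ _ (by omega)) hm h hj (m + 1)
    (fun i _ => dvd_unitary hs hc hj hQj i) fun x y hxy => ?_
  have := h.le x y
  omega

/-- **Unitary primes**, the characters `j` with `s Q^(m-j) = -1` modulo `p`. -/
theorem mem_unitary' [Finite G] [Finite X] [Nonempty X] (hM : IsPModular p M) (hQ : 2 ≤ Q) (hs : 1 ≤ s)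
    (hm : 1 ≤ m) (h : DP G X d m Q s) (hj : j ≤ m) (hc : (s : ZMod p) * (Q : ZMod p) ^ (m - j) = -1) :
    ∃ χ : IrrCharacter G, χ ∈ principalBlock M G ∧ IsChi d m Q s j (χ : G → ℂ) := by
  have : Fact p.Prime := ⟨hM.1⟩
  refine exists_mem hM hQ hs hm h hj (m + 1) (fun i _ => dvd_unitary' hj hc i) fun x y hxy => ?_
  have := h.le x y
  omega

/-- **Linear primes**: `e` is the order of `Q` modulo `p` (odd in the applications), `Q ^ j = 1`. -/
theorem mem_linear [Finite G] [Finite X] [Nonempty X] (hM : IsPModular p M) (hQ : 2 ≤ Q) (hs : 1 ≤ s)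
    (hm : 1 ≤ m) (h : DP G X d m Q s) (hj : j ≤ m) {e : ℕ} (he : ∀ k, 0 < k → k < e → (Q : ZMod p) ^ k ≠ 1)
    (hQj : (Q : ZMod p) ^ j = 1) (hI : Ines1 p e G d) :
    ∃ χ : IrrCharacter G, χ ∈ principalBlock M G ∧ IsChi d m Q s j (χ : G → ℂ) := by
  have : Fact p.Prime := ⟨hM.1⟩
  exact exists_mem hM hQ hs hm h hj e (fun i hi => dvd_linear he hj hQj hi) hI

end block

end Cfsg.Agent.H697.HT.DPB0
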