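import Cfsg.Agent.H697.HT.DPIso
import Cfsg.Agent.H477.HC.ModelB

/-!
# The dual polar scheme of `F.iso`, `F : CForm K V` a quadratic form (helper697, for S4933, box C1)

* `IsQuad F Q` : the form `F` of the library `H477` is the quadratic form `Q`;
* `IsQuad.dp` : `DP F.iso ((quadPol Q).X w) cd w (card K) (card K ^ ε)` for the action `IsQuad.act`;
* `IsQuad.dpOm` : the same on `F.Om w`;
* `isQuad_plus`, `isQuad_odd`, `isQuad_minus` : the three models.
-/

set_option autoImplicit false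
set_option linter.unusedSectionVars false

namespace Cfsg.Agent.H697.HT.DPForm

open Module Cfsg Cfsg.Agent.H2.Pol Cfsg.Agent.H674.BR Cfsg.Agent.H711.DPol Cfsg.Agent.H410.BR
open Cfsg.Agent.H697.HT.DPB0 Cfsg.Agent.H697.HT.DPIso Cfsg.Agent.H477.HC Cfsg.Agent.H53.HC
open Cfsg.Agent.LieClassical.OrthCore Cfsg.Agent.LieClassical.OrthForms Cfsg.Agent.H722.DPol

section transport

variable {G X Y : Type*} [Group G] [MulAction G X] [MulAction G Y] {d : X → X → ℕ} {m : ℕ} {up dn : ℕ → ℕ}

/-- transport of a distance transitive action -/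
theorem dr_transport (h : DR G X d m up dn) (e : X ≃ Y) (he : ∀ (g : G) (x : X), e (g • x) = g • e x) :
    DR G Y (fun x y => d (e.symm x) (e.symm y)) m up dn := by
  have hes : ∀ (g : G) (y : Y), e.symm (g • y) = g • e.symm y := by
    intro g y
    rw [Equiv.symm_apply_eq, he, Equiv.apply_symm_apply]
  refine
    { inv := fun g x y => by rw [hes, hes, h.inv]
      tr := fun x y x' y' hd => ?_
      diag := fun x y => by rw [h.diag, e.symm.apply_eq_iff_eq]
      symm := fun x y => h.symm _ _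
      le := fun x y => h.le _ _
      near := fun x y z hz => h.near _ _ _ hz
      cup := fun x y => ?_
      cdn := fun x y => ?_ }
  · obtain ⟨g, h1, h2⟩ := h.tr _ _ _ _ hd
    refine ⟨g, ?_, ?_⟩
    · rw [← hes] at h1
      exact e.symm.injective h1
    · rw [← hes] at h2
      exact e.symm.injective h2
  · rw [← h.cup]
    exact Nat.card_congr (Equiv.subtypeEquiv e.symm fun z => Iff.rfl)
  · rw [← h.cdn]
    exact Nat.card_congr (Equiv.subtypeEquiv e.symm fun z => Iff.rfl)

end transport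

variable {K V : Type*} [Field K] [AddCommGroup V] [Module K V] {F : CForm K V} {Q : QuadraticForm K V}

/-- the form `F` is the quadratic form `Q` -/
structure IsQuad (F : CForm K V) (Q : QuadraticForm K V) : Prop where
  q : ∀ v, F.Q v = Q v
  t : ∀ x, F.T x = x

namespace IsQuad

theorem b (h : IsQuad F Q) (u v : V) : F.B u v = QuadraticMap.polar Q u v := by
  have h1 := F.Q_add u v
  rw [h.t, h.q, h.q, h.q] at h1
  unfold QuadraticMap.polar
  rw [h1]
  ring

theorem ts_iff (h : IsQuad F Q) (W : Submodule K V) : F.TS W ↔ (quadPol Q).TI W := by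
  constructor
  · rintro ⟨h1, h2⟩
    refine ⟨fun x hx => ?_, fun x hx y hy => ?_⟩
    · show Q x = 0
      rw [← h.q]
      exact h1 x hx
    · show QuadraticMap.polar Q x y = 0
      rw [← h.b]
      exact h2 x hx y hy
  · rintro ⟨h1, h2⟩
    refine ⟨fun x hx => ?_, fun x hx y hy => ?_⟩
    · rw [h.q]
      exact h1 x hx
    · rw [h.b]
      exact h2 x hx y hy

theorem mem_iso (h : IsQuad F Q) (g : V ≃ₗ[K] V) : g ∈ F.iso ↔ g ∈ O Q := by
  rw [mem_O]
  constructor
  · rintro ⟨-, h2⟩ v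
    rw [← h.q, ← h.q]
    exact h2 v
  · intro h2
    refine ⟨fun u v => ?_, fun v => ?_⟩
    · rw [h.b, h.b]
      unfold QuadraticMap.polar
      rw [← map_add, h2, h2, h2]
    · rw [h.q, h.q]
      exact h2 v

/-- `F.iso` acts on the polar space -/
theorem acts (h : IsQuad F Q) : Acts (quadPol Q) F.iso.subtype where
  sing g v hv := by
    show Q (g.1 v) = 0
    rw [mem_O.1 ((h.mem_iso g.1).1 g.2) v]
    exact hv
  orth g x y hxy := by
    show QuadraticMap.polar Q (g.1 x) (g.1 y) = 0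
    rw [polar_map ((h.mem_iso g.1).1 g.2) x y]
    exact hxy

/-- the action on the totally singular subspaces of dimension `k` -/
@[reducible] def act (h : IsQuad F Q) (k : ℕ) : MulAction F.iso ((quadPol Q).X k) := h.acts.mulAction k

theorem smul_val (h : IsQuad F Q) (k : ℕ) (g : F.iso) (y : (quadPol Q).X k) :
    (letI := h.act k; g • y).1 = y.1.map (F.iso.subtype g : V →ₗ[K] V) := rfl

theorem hfix (h : IsQuad F Q) (k : ℕ) (g : F.iso) (y : (quadPol Q).X k)
    (hy : y.1.map (F.iso.subtype g : V →ₗ[K] V) = y.1) : (letI := h.act k; g • y = y) :=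
  Subtype.ext hy

theorem hs (h : IsQuad F Q) {k : ℕ} (y : (quadPol Q).X k) : F.TS y.1 := (h.ts_iff _).2 y.2.1

variable [Finite K] [FiniteDimensional K V] {w ε : ℕ}

theorem thickV (ht : Typ Q w ε) : Thick (quadPol Q) w (Nat.card K ^ ε) := by
  obtain ⟨n, rfl⟩ : ∃ n, w = n + 1 := ⟨w - 1, by have := ht.pos; omega⟩
  refine Thick.of_X fun T => ?_
  have h1 := ht.card_over (k := n) (by omega) T
  rw [show n + 1 - n = 1 by omega, show n + 1 - 1 - n + ε = ε by omega, pow_one, mul_comm] at h1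
  have hq : 1 < Nat.card K := Finite.one_lt_card
  exact Nat.eq_of_mul_eq_mul_left (by omega) h1

/-- **the dual polar scheme of `F.iso`** -/
theorem dp (h : IsQuad F Q) (ht : Typ Q w ε) :
    letI := h.act w
    DP F.iso ((quadPol Q).X w) cd w (Nat.card K) (Nat.card K ^ ε) := by
  have hmax : IsEmpty ((quadPol Q).X (w + 1)) := ht.isEmpty_X (Nat.lt_succ_self w)
  refine dp_of_acts h.acts hmax (thickV ht) fun x y x' y' hxy => ?_
  have e1 : finrank K ↥(x.1 ⊓ y.1) = finrank K ↥(x'.1 ⊓ y'.1) := by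
    rw [finrank_inf_eq x y, finrank_inf_eq x' y', hxy]
  have e2 : finrank K ↥(y.1 ⊓ (quadPol Q).perp x.1) = finrank K ↥(y'.1 ⊓ (quadPol Q).perp x'.1) := by
    rw [inf_perp_of_max hmax, inf_perp_of_max hmax, inf_comm y.1, inf_comm y'.1]
    exact e1
  obtain ⟨g, hg, e3, e4⟩ := witt_pair_O ht.nondeg x.2.1 y.2.1 x'.2.1 y'.2.1 (x.2.2.trans x'.2.2.symm)
    (y.2.2.trans y'.2.2.symm) e1 e2
  exact ⟨⟨g, (h.mem_iso g).2 hg⟩, Subtype.ext e3, Subtype.ext e4⟩

theorem nonempty (ht : Typ Q w ε) : Nonempty ((quadPol Q).X w) := (Nat.card_pos_iff.1 (ht.card_X_pos le_rfl)).1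

/-- the two descriptions of the totally singular subspaces -/
def eOm (h : IsQuad F Q) (k : ℕ) : (quadPol Q).X k ≃ F.Om k where
  toFun x := ⟨x.1, (h.ts_iff _).2 x.2.1, x.2.2⟩
  invFun x := ⟨x.1, (h.ts_iff _).1 x.2.1, x.2.2⟩
  left_inv _ := rfl
  right_inv _ := rfl

/-- **the dual polar scheme of `F.iso`** on `F.Om w` -/
theorem dpOm (h : IsQuad F Q) (ht : Typ Q w ε) :
    letI := subAct F.iso.subtype (F.Om w) F.Om_map
    DP F.iso (F.Om w) (fun x y => w - finrank K ↥(x.1 ⊓ y.1)) w (Nat.card K) (Nat.card K ^ ε) := by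
  let _ := h.act w
  let _ := subAct F.iso.subtype (F.Om w) F.Om_map
  exact dr_transport (h.dp ht) (h.eOm w) fun _ _ => rfl

end IsQuad

section models

variable (K)

theorem isQuad_plus (m : ℕ) : IsQuad (CForm.plusF K m) (plusForm m K) where
  q v := by rw [coe_plusForm]; rfl
  t _ := rfl

theorem isQuad_odd (m : ℕ) (h2 : (2 : K) ≠ 0) : IsQuad (CForm.oddF K m h2) (oddForm m K) where
  q v := by rw [coe_oddForm]; rfl
  t _ := rfl

theorem isQuad_minus [Finite K] (m : ℕ) (a b : K)
    (hab : ∀ z₁ z₂ : K, z₁ ^ 2 + a * z₁ * z₂ + b * z₂ ^ 2 = 0 → z₁ = 0 ∧ z₂ = 0) :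
    IsQuad (CForm.minusF K m a b hab) (minusForm m K a b) where
  q v := by rw [coe_minusForm]; rfl
  t _ := rfl

end models

end Cfsg.Agent.H697.HT.DPForm
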