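import Cfsg.Agent.H697.HT.DPB0
import Cfsg.Agent.H711.DPol.Geo
import Cfsg.Agent.H410.BR.OmInst

/-!
# The dual polar scheme of the full isometry group (helper697, for S4933)

* `dp_of_acts` : any group acting on a polar space, transitive on the pairs of maximal subspaces at each distance;
* `dp_iso` : the isometry group of a quadratic form of each type (`s = q ^ ε`);
* `iso_of_semi` : the automorphisms induced by semisimilarities are isometries of the scheme.
-/

set_option autoImplicit false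
set_option linter.unusedSectionVars false

namespace Cfsg.Agent.H697.HT.DPIso

open Module Cfsg Cfsg.Agent.H2.Pol Cfsg.Agent.H674.BR Cfsg.Agent.H711.DPol
open Cfsg.Agent.H697.HT.DPB0

section gen

variable {F V : Type*} [Field F] [Finite F] [AddCommGroup V] [Module F V] [FiniteDimensional F V] {Φ : Pol F V}
  {G : Type*} [Group G] {ρ : G →* (V ≃ₗ[F] V)} {m s : ℕ}

theorem cd_act (hA : Acts Φ ρ) (g : G) (x y : Φ.X m) : cd (hA.act m g x) (hA.act m g y) = cd x y := by
  unfold cd
  have h1 : (hA.act m g x).1 ⊓ (hA.act m g y).1 = (x.1 ⊓ y.1).map (ρ g : V →ₗ[F] V) := by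
    rw [hA.act_val, hA.act_val, Submodule.map_inf _ (ρ g).injective]
  rw [h1]
  congr 1
  exact LinearEquiv.finrank_map_eq (ρ g) (x.1 ⊓ y.1)

/-- **the dual polar scheme** -/
theorem dp_of_acts (hA : Acts Φ ρ) (hmax : IsEmpty (Φ.X (m + 1))) (hs : Thick Φ m s)
    (hp : ∀ x y x' y' : Φ.X m, cd x y = cd x' y' → ∃ g : G, hA.act m g x = x' ∧ hA.act m g y = y') :
    letI := hA.mulAction m
    H722.DPol.DP G (Φ.X m) cd m (Nat.card F) s := by
  let _ := hA.mulAction m
  exact
    { inv := fun g x y => cd_act hA g x y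
      tr := fun x y x' y' h => hp x y x' y' h
      diag := fun x y => cd_eq_zero x y
      symm := fun x y => cd_comm x y
      le := fun x y => cd_le x y
      near := fun x y z h => (cd_step hmax h).1
      cup := fun x y => card_up hmax hs rfl
      cdn := fun x y => card_down hmax rfl }

/-- the maximal subspaces: `U' ⊓ U^⊥ = U' ⊓ U` -/
theorem inf_perp_of_max (hmax : IsEmpty (Φ.X (m + 1))) (x y : Φ.X m) : y.1 ⊓ Φ.perp x.1 = y.1 ⊓ x.1 := by
  apply le_antisymm
  · have h1 : Φ.TI (y.1 ⊓ Φ.perp x.1) := y.2.1.mono inf_le_left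
    have h2 : Φ.Orth (y.1 ⊓ Φ.perp x.1) x.1 := by
      refine Pol.Orth.symm ?_
      intro a ha b hb
      exact Φ.refl _ _ (hb.2 a ha)
    have h3 : Φ.TI ((y.1 ⊓ Φ.perp x.1) ⊔ x.1) := h1.sup x.2.1 h2
    have h4 := le_max hmax h3
    have h5 : x.1 = (y.1 ⊓ Φ.perp x.1) ⊔ x.1 :=
      Submodule.eq_of_le_of_finrank_le le_sup_right (by rw [x.2.2]; exact h4)
    refine le_inf inf_le_left ?_
    have h6 : y.1 ⊓ Φ.perp x.1 ≤ (y.1 ⊓ Φ.perp x.1) ⊔ x.1 := le_sup_left
    rwa [← h5] at h6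
  · refine inf_le_inf_left _ ?_
    intro a ha b hb
    exact x.2.1.2 a ha b hb

end gen

section Om

open Cfsg.Agent.H410.BR

variable {F : Type*} [Field F] [Finite F] {ι : Type} [Fintype ι] [DecidableEq ι] {Q : QuadraticForm F (ι → F)}
  {w ε : ℕ}

theorem thick (h : Typ Q w ε) : Thick (quadPol Q) w (Nat.card F ^ ε) := by
  obtain ⟨n, rfl⟩ : ∃ n, w = n + 1 := ⟨w - 1, by have := h.pos; omega⟩
  refine Thick.of_X fun T => ?_
  have h1 := h.card_over (k := n) (by omega) T
  rw [show n + 1 - n = 1 by omega, show n + 1 - 1 - n + ε = ε by omega, pow_one, mul_comm] at h1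
  have hq : 1 < Nat.card F := Finite.one_lt_card
  exact Nat.eq_of_mul_eq_mul_left (by omega) h1

/-- the action of the isometry group on the totally singular subspaces of dimension `k` -/
@[reducible] noncomputable def isoAct (Q : QuadraticForm F (ι → F)) (k : ℕ) : MulAction (Cfsg.isometryGroup F ⇑Q) ((quadPol Q).X k) :=
  (iso_acts Q).mulAction k

/-- **the dual polar scheme of a quadratic form**, the full isometry group -/
theorem dp_iso (h : Typ Q w ε) :
    letI := isoAct Q w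
    H722.DPol.DP (Cfsg.isometryGroup F ⇑Q) ((quadPol Q).X w) cd w (Nat.card F) (Nat.card F ^ ε) := by
  have hmax : IsEmpty ((quadPol Q).X (w + 1)) := h.isEmpty_X (Nat.lt_succ_self w)
  refine dp_of_acts (iso_acts Q) hmax (thick h) fun x y x' y' hxy => ?_
  have e1 : finrank F ↥(x.1 ⊓ y.1) = finrank F ↥(x'.1 ⊓ y'.1) := by
    rw [finrank_inf_eq x y, finrank_inf_eq x' y', hxy]
  refine iso_pair h.nondeg x x' y y' e1 ?_
  rw [inf_perp_of_max hmax, inf_perp_of_max hmax, inf_comm y.1, inf_comm y'.1]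
  exact e1

end Om

section semi

variable {F V : Type*} [Field F] [Finite F] [AddCommGroup V] [Module F V] [FiniteDimensional F V] {Φ : Pol F V}
  {G : Type*} [Group G] {ρ : G →* (V ≃ₗ[F] V)} {m : ℕ}

theorem sub_inf {M : V ≃+ V} (hM : SemiAct Φ M) (U W : Submodule F V) : hM.sub (U ⊓ W) = hM.sub U ⊓ hM.sub W := by
  ext v
  obtain ⟨v, rfl⟩ := M.surjective v
  rw [Submodule.mem_inf, hM.mem_sub, hM.mem_sub, hM.mem_sub, Submodule.mem_inf]

/-- **the automorphisms induced by semisimilarities** are isometries of the scheme -/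
theorem iso_of_semi (hA : Acts Φ ρ) {M : V ≃+ V} (hM : SemiAct Φ M) (γ : G ≃* G)
    (hγ : ∀ (g : G) (v : V), ρ (γ g) (M v) = M (ρ g v)) :
    letI := hA.mulAction m
    Iso (G := G) (X := Φ.X m) cd γ := by
  let _ := hA.mulAction m
  refine ⟨hM.perm m, fun g x => ?_, fun x y => ?_⟩
  · apply Subtype.ext
    show hM.sub (x.1.map (ρ g : V →ₗ[F] V)) = (hM.sub x.1).map (ρ (γ g) : V →ₗ[F] V)
    ext v
    constructor
    · rintro ⟨_, ⟨x, hx, rfl⟩, rfl⟩
      exact ⟨M x, ⟨x, hx, rfl⟩, hγ g x⟩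
    · rintro ⟨_, ⟨x, hx, rfl⟩, rfl⟩
      exact ⟨ρ g x, ⟨x, hx, rfl⟩, (hγ g x).symm⟩
  · show m - finrank F ↥(hM.sub x.1 ⊓ hM.sub y.1) = m - finrank F ↥(x.1 ⊓ y.1)
    rw [← sub_inf, hM.finrank]

end semi

end Cfsg.Agent.H697.HT.DPIso
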